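import Mathlib
import Cfsg.Agent.Lib.Helper49.RUW.Defs

/-!
# RUW package [NPC]

If a Sylow 2-subgroup `T` of `G` has no nontrivial automorphism of odd order, then `N_G(T)` has a
normal 2-complement (Schur-Zassenhaus; the complement centralizes `T`).
-/

set_option autoImplicit false

namespace Cfsg.Agent.Lib.Helper86.RUW

universe u

theorem pkgNPC : Cfsg.Agent.Lib.Helper49.RUW.PkgNPC.{u} := by
  intro G _ _ T hT
  have hle : (T : Subgroup G) ≤ Subgroup.normalizer ((T : Subgroup G) : Set G) :=
    Subgroup.le_normalizer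
  let P : Sylow 2 ↥(Subgroup.normalizer ((T : Subgroup G) : Set G)) := T.subtype hle
  have hPc : (P : Subgroup ↥(Subgroup.normalizer ((T : Subgroup G) : Set G))) =
      (T : Subgroup G).subgroupOf (Subgroup.normalizer ((T : Subgroup G) : Set G)) := rfl
  haveI hPn : (P : Subgroup ↥(Subgroup.normalizer ((T : Subgroup G) : Set G))).Normal := by
    rw [hPc]; exact Subgroup.normal_in_normalizer
  have hcop : Nat.Coprime (Nat.card (P : Subgroup ↥(Subgroup.normalizer ((T : Subgroup G) : Set G))))
      (P : Subgroup ↥(Subgroup.normalizer ((T : Subgroup G) : Set G))).index :=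
    P.card_coprime_index
  obtain ⟨H, hH⟩ := Subgroup.exists_right_complement'_of_coprime hcop
  -- `|H|` is odd
  have hHcard : Nat.card H =
      (P : Subgroup ↥(Subgroup.normalizer ((T : Subgroup G) : Set G))).index := by
    have h1 := hH.card_mul_card
    have h2 := (P : Subgroup ↥(Subgroup.normalizer ((T : Subgroup G) : Set G))).card_mul_index
    have hpos : 0 < Nat.card (P : Subgroup ↥(Subgroup.normalizer ((T : Subgroup G) : Set G))) :=
      Nat.card_pos
    exact Nat.eq_of_mul_eq_mul_left hpos (h1.trans h2.symm)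
  have hHodd : Odd (Nat.card H) := by
    rw [hHcard]
    have h2 : ¬ (2 ∣ (P : Subgroup ↥(Subgroup.normalizer ((T : Subgroup G) : Set G))).index) :=
      P.not_dvd_index
    exact Nat.odd_iff.mpr (Nat.two_dvd_ne_zero.mp h2)
  -- the conjugation action on `T`
  let e : ↥(P : Subgroup ↥(Subgroup.normalizer ((T : Subgroup G) : Set G))) ≃* ↥(T : Subgroup G) :=
    Subgroup.subgroupOfEquivOfLe hle
  let ψ : ↥(Subgroup.normalizer ((T : Subgroup G) : Set G)) →* MulAut ↥(T : Subgroup G) :=
    (MulAut.congr e).toMonoidHom.comp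
      (MulAut.conjNormal (H := (P : Subgroup ↥(Subgroup.normalizer ((T : Subgroup G) : Set G)))))
  have hcen : ∀ h ∈ H, ∀ t ∈ (P : Subgroup ↥(Subgroup.normalizer ((T : Subgroup G) : Set G))),
      h * t = t * h := by
    intro h hh t ht
    have hodd : Odd (orderOf (ψ h)) := by
      have hd1 : orderOf (ψ h) ∣ orderOf h := orderOf_map_dvd ψ h
      have hd2 : orderOf (⟨h, hh⟩ : H) ∣ Nat.card H := orderOf_dvd_natCard _
      have hd3 : orderOf (⟨h, hh⟩ : H) = orderOf h := by
        rw [← Subgroup.orderOf_coe]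
      rw [hd3] at hd2
      exact Odd.of_dvd_nat hHodd (hd1.trans hd2)
    have h1 : ψ h = 1 := hT _ hodd
    have h2 : (ψ h) (e ⟨t, ht⟩) = e ⟨t, ht⟩ := by rw [h1]; rfl
    have h3 : (ψ h) (e ⟨t, ht⟩) = e (MulAut.conjNormal h ⟨t, ht⟩) := by
      simp [ψ, MulAut.congr]
    rw [h3] at h2
    have h4 := e.injective h2
    have h5 : ((MulAut.conjNormal h ⟨t, ht⟩ :
        ↥(P : Subgroup ↥(Subgroup.normalizer ((T : Subgroup G) : Set G)))) :
        ↥(Subgroup.normalizer ((T : Subgroup G) : Set G))) = h * t * h⁻¹ := by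
      simp [MulAut.conjNormal_apply]
    have h6 : h * t * h⁻¹ = t := by
      rw [← h5, h4]
    calc h * t = h * t * h⁻¹ * h := by group
      _ = t * h := by rw [h6]
  have hHn : H.Normal := by
    constructor
    intro h hh n
    have hex := (hH : Subgroup.IsComplement
      ((P : Subgroup ↥(Subgroup.normalizer ((T : Subgroup G) : Set G))) : Set _) (H : Set _)).existsUnique n
    obtain ⟨⟨⟨t, ht⟩, ⟨k, hk⟩⟩, hx, -⟩ := hex
    simp only at hx
    have hkh : k * h * k⁻¹ ∈ H := H.mul_mem (H.mul_mem hk hh) (H.inv_mem hk)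
    have hc := hcen _ hkh t ht
    have : n * h * n⁻¹ = k * h * k⁻¹ := by
      rw [← hx]
      calc t * k * h * (t * k)⁻¹ = t * (k * h * k⁻¹) * t⁻¹ := by group
        _ = (k * h * k⁻¹) * t * t⁻¹ := by rw [hc]
        _ = k * h * k⁻¹ := by group
    rw [this]; exact hkh
  exact ⟨P, H, hHn, hH.symm⟩

end Cfsg.Agent.Lib.Helper86.RUW
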