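import Mathlib
import Cfsg.Agent.Lib.Helper49.RUW.Defs

/-!
# RUW package [NORMZ]

A normal subgroup of order `≤ p^j` of a finite `p`-group lies in `Z_j`.
-/

set_option autoImplicit false

namespace Cfsg.Agent.Lib.Helper86.RUW

universe u

/-- In a nilpotent group, `[N, G] = N` forces `N = 1`. -/
theorem eq_bot_of_commutator_top_eq {T : Type u} [Group T] [Group.IsNilpotent T] (N : Subgroup T)
    (h : ⁅N, (⊤ : Subgroup T)⁆ = N) : N = ⊥ := by
  obtain ⟨n, hn⟩ := Subgroup.nilpotent_iff_lowerCentralSeries.mp (inferInstance : Group.IsNilpotent T)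
  have key : ∀ i, N ≤ (⊤ : Subgroup T).lowerCentralSeries i := by
    intro i
    induction i with
    | zero => exact le_top
    | succ i ih =>
      rw [Subgroup.lowerCentralSeries_succ]
      calc N = ⁅N, (⊤ : Subgroup T)⁆ := h.symm
        _ ≤ _ := Subgroup.commutator_mono ih le_rfl
  exact le_bot_iff.mp (hn ▸ key n)

/-- A normal subgroup of order `≤ p^j` of a finite `p`-group lies in `Z_j`. -/
theorem normal_le_ucs {T : Type u} [Group T] [Finite T] {p : ℕ} [Fact p.Prime] (hT : IsPGroup p T) :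
    ∀ (j : ℕ) (N : Subgroup T), N.Normal → Nat.card N ≤ p ^ j →
      N ≤ Subgroup.upperCentralSeries T j := by
  haveI : Group.IsNilpotent T := hT.isNilpotent
  have hp : Nat.Prime p := Fact.out
  intro j
  induction j with
  | zero =>
    intro N _ hc
    rw [pow_zero] at hc
    rw [Subgroup.eq_bot_of_card_le N hc]
    exact bot_le
  | succ j ih =>
    intro N hN hc
    haveI := hN
    have hMle : ⁅N, (⊤ : Subgroup T)⁆ ≤ N := Subgroup.commutator_le_left N ⊤
    have hMn : (⁅N, (⊤ : Subgroup T)⁆).Normal := Subgroup.commutator_normal N ⊤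
    have hMcard : Nat.card ↥(⁅N, (⊤ : Subgroup T)⁆) ≤ p ^ j := by
      by_cases hbot : N = ⊥
      · have : ⁅N, (⊤ : Subgroup T)⁆ = ⊥ := le_bot_iff.mp (hbot ▸ hMle)
        rw [this, Subgroup.card_bot]
        exact Nat.one_le_pow _ _ hp.pos
      · have hne : ⁅N, (⊤ : Subgroup T)⁆ ≠ N := fun h => hbot (eq_bot_of_commutator_top_eq N h)
        obtain ⟨a, ha⟩ := (hT.to_subgroup N).exists_card_eq
        obtain ⟨b, hb⟩ := (hT.to_subgroup ⁅N, (⊤ : Subgroup T)⁆).exists_card_eq
        have hdvd := Subgroup.card_dvd_of_le hMle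
        rw [ha, hb] at hdvd
        have hba : b ≤ a := (Nat.pow_dvd_pow_iff_le_right hp.one_lt).mp hdvd
        have hba' : b ≠ a := by
          intro h
          apply hne
          exact Subgroup.eq_of_le_of_card_ge hMle (by rw [ha, hb, h])
        rw [ha] at hc
        have haj : a ≤ j + 1 := (Nat.pow_le_pow_iff_right hp.one_lt).mp hc
        rw [hb]
        exact Nat.pow_le_pow_right hp.pos (by omega)
    have hM := ih _ hMn hMcard
    intro x hx
    rw [Subgroup.mem_upperCentralSeries_succ_iff]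
    intro y
    exact hM (Subgroup.commutator_mem_commutator hx (Subgroup.mem_top y))

theorem pkgNormZ : Cfsg.Agent.Lib.Helper49.RUW.PkgNormZ.{u} := by
  intro T _ _ hT N hN j hc
  haveI : Fact (Nat.Prime 2) := ⟨Nat.prime_two⟩
  exact normal_le_ucs hT j N hN hc

end Cfsg.Agent.Lib.Helper86.RUW
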