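import Mathlib
import Cfsg.Agent.Lib.Helper49.RUW.Defs

/-!
# RUW package [UCS]

`T` a finite 2-group with `|Z₄(T)| = 16 < |T|`: then `|Z₁| = 2`, `|Z₂| = 4`, `|Z₃| = 8`.
-/

set_option autoImplicit false

namespace Cfsg.Agent.Lib.Helper86.RUW

universe u

/-- In a finite `p`-group the upper central series grows strictly until it reaches `⊤`. -/
theorem ucs_card_step {T : Type u} [Group T] [Finite T] {p : ℕ} [Fact p.Prime] (hT : IsPGroup p T)
    (n : ℕ) (hn : Subgroup.upperCentralSeries T n ≠ ⊤) :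
    ∃ k, 2 ≤ k ∧ Nat.card ↥(Subgroup.upperCentralSeries T (n + 1)) =
      Nat.card ↥(Subgroup.upperCentralSeries T n) * k := by
  have hle : Subgroup.upperCentralSeries T n ≤ Subgroup.upperCentralSeries T (n + 1) :=
    Subgroup.upperCentralSeries_mono T (Nat.le_succ n)
  obtain ⟨k, hk⟩ := Subgroup.card_dvd_of_le hle
  have hpos : 0 < Nat.card ↥(Subgroup.upperCentralSeries T (n + 1)) := Nat.card_pos
  refine ⟨k, ?_, hk⟩
  by_contra hk2
  have hk01 : k = 0 ∨ k = 1 := by omega
  rcases hk01 with h0 | h1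
  · rw [h0, Nat.mul_zero] at hk; omega
  · rw [h1, Nat.mul_one] at hk
    have heq : Subgroup.upperCentralSeries T n = Subgroup.upperCentralSeries T (n + 1) :=
      Subgroup.eq_of_le_of_card_ge hle (le_of_eq hk)
    haveI : Nontrivial (T ⧸ Subgroup.upperCentralSeries T n) := QuotientGroup.nontrivial_iff.mpr hn
    have hQ : IsPGroup p (T ⧸ Subgroup.upperCentralSeries T n) := hT.to_quotient _
    haveI := hQ.center_nontrivial
    obtain ⟨c, hc⟩ := exists_ne (1 : Subgroup.center (T ⧸ Subgroup.upperCentralSeries T n))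
    obtain ⟨x, hx⟩ := QuotientGroup.mk_surjective (c : T ⧸ Subgroup.upperCentralSeries T n)
    have hx1 : x ∈ Subgroup.upperCentralSeries T (n + 1) := by
      show x ∈ Subgroup.upperCentralSeriesStep (Subgroup.upperCentralSeries T n)
      rw [Subgroup.upperCentralSeriesStep_eq_comap_center, Subgroup.mem_comap]
      show (QuotientGroup.mk x : T ⧸ Subgroup.upperCentralSeries T n) ∈ _
      rw [hx]; exact c.2
    rw [← heq] at hx1
    apply hc
    apply Subtype.ext
    rw [← hx]
    exact (QuotientGroup.eq_one_iff x).mpr hx1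

theorem pkgUcs : Cfsg.Agent.Lib.Helper49.RUW.PkgUcs.{u} := by
  intro T _ _ hT h4 hlt
  haveI : Fact (Nat.Prime 2) := ⟨Nat.prime_two⟩
  have hne4 : Subgroup.upperCentralSeries T 4 ≠ ⊤ := by
    intro h
    rw [h, Subgroup.card_top] at h4
    omega
  have hne : ∀ i, i ≤ 4 → Subgroup.upperCentralSeries T i ≠ ⊤ := by
    intro i hi h
    apply hne4
    exact top_le_iff.mp (h ▸ Subgroup.upperCentralSeries_mono T hi)
  obtain ⟨k0, hk0, e0⟩ := ucs_card_step hT 0 (hne 0 (by norm_num))
  obtain ⟨k1, hk1, e1⟩ := ucs_card_step hT 1 (hne 1 (by norm_num))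
  obtain ⟨k2, hk2, e2⟩ := ucs_card_step hT 2 (hne 2 (by norm_num))
  obtain ⟨k3, hk3, e3⟩ := ucs_card_step hT 3 (hne 3 (by norm_num))
  have hz : Nat.card ↥(Subgroup.upperCentralSeries T 0) = 1 := by
    rw [Subgroup.upperCentralSeries_zero]; exact Subgroup.card_bot
  simp only [Nat.zero_add, Nat.reduceAdd] at e0 e1 e2 e3
  rw [hz, Nat.one_mul] at e0
  rw [h4] at e3
  generalize Nat.card ↥(Subgroup.upperCentralSeries T 1) = c1 at *
  generalize Nat.card ↥(Subgroup.upperCentralSeries T 2) = c2 at *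
  generalize Nat.card ↥(Subgroup.upperCentralSeries T 3) = c3 at *
  subst e0
  have h3 : c3 * 2 ≤ 16 := by rw [e3]; exact Nat.mul_le_mul_left _ hk3
  have h2 : c2 * 2 ≤ c3 := by rw [e2]; exact Nat.mul_le_mul_left _ hk2
  have h1 : c1 * 2 ≤ c2 := by rw [e1]; exact Nat.mul_le_mul_left _ hk1
  have hk0' : c1 = 2 := by omega
  subst hk0'
  have hk1' : k1 = 2 := by
    have : 2 * k1 ≤ 4 := by omega
    omega
  subst hk1'
  have hc2 : c2 = 4 := by omega
  subst hc2
  have hk2' : k2 = 2 := by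
    have : 4 * k2 ≤ 8 := by omega
    omega
  subst hk2'
  exact ⟨rfl, rfl, by omega⟩

end Cfsg.Agent.Lib.Helper86.RUW
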